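import Mathlib
import Cfsg.Agent.Lib.Helper63.BB.Defs
import Cfsg.Agent.Lib.Helper27.MC.Binom

/-!
# S4144 (BB) package [EB]: `PkgEngelBase`

In a group of exponent `p`, the `(p-1)`-fold commutator `cs x y (p-1)` lies in the derived
subgroup of `NC x y = ⟨x ^ i * y * x ^ (-i)⟩`.
-/

set_option autoImplicit false

namespace Cfsg.Agent.Lib.Helper83.BB

open Cfsg.Agent.Lib.Helper63.BB

universe u

variable {G : Type u} [Group G]

/-- `NC x y` is normalized by `x`. -/
theorem conj_mem_NC (x y : G) : ∀ n ∈ NC x y, x * n * x⁻¹ ∈ NC x y := by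
  intro n hn
  unfold NC at hn ⊢
  induction hn using Subgroup.closure_induction with
  | mem a ha =>
    obtain ⟨i, rfl⟩ := ha
    apply Subgroup.subset_closure
    refine ⟨i + 1, ?_⟩
    show x ^ (i + 1) * y * (x ^ (i + 1))⁻¹ = x * (x ^ i * y * (x ^ i)⁻¹) * x⁻¹
    rw [pow_succ', mul_inv_rev]
    group
  | one =>
    have h1 : x * 1 * x⁻¹ = 1 := by group
    rw [h1]
    exact Subgroup.one_mem _
  | mul a b _ _ iha ihb =>
    have h1 : x * (a * b) * x⁻¹ = (x * a * x⁻¹) * (x * b * x⁻¹) := by group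
    rw [h1]
    exact Subgroup.mul_mem _ iha ihb
  | inv a _ iha =>
    have h1 : x * a⁻¹ * x⁻¹ = (x * a * x⁻¹)⁻¹ := by group
    rw [h1]
    exact Subgroup.inv_mem _ iha

theorem gen_mem_NC (x y : G) (t : ℕ) : x ^ t * y * (x ^ t)⁻¹ ∈ NC x y :=
  Subgroup.subset_closure ⟨t, rfl⟩

theorem cs_mem_NC (x y : G) : ∀ l : ℕ, cs x y l ∈ NC x y := by
  intro l
  induction l with
  | zero =>
    have h := gen_mem_NC x y 0
    rw [pow_zero, one_mul, inv_one, mul_one] at h
    exact h
  | succ l ih =>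
    show (cs x y l)⁻¹ * (x * cs x y l * x⁻¹) ∈ NC x y
    exact Subgroup.mul_mem _ (Subgroup.inv_mem _ ih) (conj_mem_NC x y _ ih)

/-- The ordered product `∏_{t<n} x^t y x^{-t}` equals `(y x)^n x^{-n}`. -/
theorem prod_conj_eq (x y : G) (P : ℕ → G) (h0 : P 0 = 1)
    (hs : ∀ n, P (n + 1) = P n * (x ^ n * y * (x ^ n)⁻¹)) :
    ∀ n, P n = (y * x) ^ n * (x ^ n)⁻¹ := by
  intro n
  induction n with
  | zero => rw [h0, pow_zero, pow_zero, inv_one, mul_one]
  | succ n ih =>
    rw [hs, ih, pow_succ (y * x) n, pow_succ x n, mul_inv_rev]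
    group

theorem pkgEngelBase : Cfsg.Agent.Lib.Helper63.BB.PkgEngelBase.{u} := by
  intro G _ p hp hexp x y
  -- the conjugation by `x` on `N`
  obtain ⟨φ, hφ⟩ : ∃ φ : ↥(NC x y) →* ↥(NC x y), ∀ n : ↥(NC x y),
      ((φ n : ↥(NC x y)) : G) = x * (n : G) * x⁻¹ :=
    ⟨(((MulAut.conj x).toMonoidHom).comp (NC x y).subtype).codRestrict (NC x y)
      (fun n => conj_mem_NC x y n.1 n.2), fun n => rfl⟩
  -- generators and iterated commutators as elements of `N`
  obtain ⟨g, hg⟩ : ∃ g : ℕ → ↥(NC x y), ∀ t, ((g t : ↥(NC x y)) : G) = x ^ t * y * (x ^ t)⁻¹ :=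
    ⟨fun t => ⟨_, gen_mem_NC x y t⟩, fun t => rfl⟩
  obtain ⟨c, hc⟩ : ∃ c : ℕ → ↥(NC x y), ∀ l, ((c l : ↥(NC x y)) : G) = cs x y l :=
    ⟨fun l => ⟨_, cs_mem_NC x y l⟩, fun l => rfl⟩
  have hφg : ∀ t, φ (g t) = g (t + 1) := by
    intro t
    apply Subtype.ext
    rw [hφ, hg, hg, pow_succ', mul_inv_rev]
    group
  have hc0 : c 0 = g 0 := by
    apply Subtype.ext
    rw [hc, hg, pow_zero, one_mul, inv_one, mul_one]
    rfl
  have hcs : ∀ l, c (l + 1) = (c l)⁻¹ * φ (c l) := by
    intro l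
    apply Subtype.ext
    rw [hc, Subgroup.coe_mul, Subgroup.coe_inv, hφ, hc]
    rfl
  -- the abelianization
  have hexpA : ∀ a : Abelianization ↥(NC x y), a ^ p = 1 := by
    intro a
    obtain ⟨n, rfl⟩ := QuotientGroup.mk_surjective a
    show Abelianization.of n ^ p = 1
    rw [← map_pow]
    have h1 : n ^ p = 1 := by
      apply Subtype.ext
      rw [Subgroup.coe_pow, hexp]
      rfl
    rw [h1, map_one]
  have hd : ∀ l, Abelianization.of (c (l + 1)) =
      Abelianization.map φ (Abelianization.of (c l)) * (Abelianization.of (c l))⁻¹ := by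
    intro l
    rw [hcs, map_mul, map_inv, Abelianization.map_of, mul_comm]
  have hiter : ∀ t, (⇑(Abelianization.map φ))^[t] (Abelianization.of (c 0)) =
      Abelianization.of (g t) := by
    intro t
    induction t with
    | zero => rw [Function.iterate_zero, id, hc0]
    | succ t ih => rw [Function.iterate_succ_apply', ih, Abelianization.map_of, hφg]
  have hsum := Cfsg.Agent.Lib.Helper27.MC.sum_iter_eq (Abelianization.map φ)
    (fun l => Abelianization.of (c l)) hd p
  -- the right-hand side is `d (p - 1)`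
  have hp1 : p - 1 + 1 = p := Nat.sub_add_cancel hp.pos
  have hR : ∏ l ∈ Finset.range p, Abelianization.of (c l) ^ (p.choose (l + 1)) =
      Abelianization.of (c (p - 1)) := by
    rw [← hp1, Finset.prod_range_succ, hp1, Nat.choose_self, pow_one]
    have h1 : ∏ l ∈ Finset.range (p - 1), Abelianization.of (c l) ^ (p.choose (l + 1)) = 1 := by
      apply Finset.prod_eq_one
      intro l hl
      rw [Finset.mem_range] at hl
      obtain ⟨m, hm⟩ := hp.dvd_choose_self (Nat.succ_ne_zero l) (by omega : l + 1 < p)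
      rw [hm, pow_mul, hexpA, one_pow]
    rw [h1, one_mul]
  -- the left-hand side is `1`
  obtain ⟨P, hP0, hPs⟩ : ∃ P : ℕ → ↥(NC x y), P 0 = 1 ∧ ∀ n, P (n + 1) = P n * g n :=
    ⟨fun n => Nat.rec 1 (fun k acc => acc * g k) n, rfl, fun n => rfl⟩
  have hPval : ∀ n, ((P n : ↥(NC x y)) : G) = (y * x) ^ n * (x ^ n)⁻¹ := by
    refine prod_conj_eq x y (fun n => ((P n : ↥(NC x y)) : G)) ?_ ?_
    · show ((P 0 : ↥(NC x y)) : G) = 1
      rw [hP0]
      rfl
    · intro n
      show ((P (n + 1) : ↥(NC x y)) : G) = ((P n : ↥(NC x y)) : G) * (x ^ n * y * (x ^ n)⁻¹)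
      rw [hPs, Subgroup.coe_mul, hg]
  have hPof : ∀ n, Abelianization.of (P n) =
      ∏ t ∈ Finset.range n, Abelianization.of (g t) := by
    intro n
    induction n with
    | zero => rw [hP0, map_one, Finset.prod_range_zero]
    | succ n ih => rw [hPs, map_mul, ih, Finset.prod_range_succ]
  have hPp : P p = 1 := by
    apply Subtype.ext
    rw [hPval, hexp, hexp, inv_one, mul_one]
    rfl
  have hL : ∏ t ∈ Finset.range p, (⇑(Abelianization.map φ))^[t] (Abelianization.of (c 0)) = 1 := by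
    rw [Finset.prod_congr rfl (fun t _ => hiter t), ← hPof, hPp, map_one]
  have hfin : Abelianization.of (c (p - 1)) = 1 := by
    rw [← hR, ← hsum]
    exact hL
  have hmem : c (p - 1) ∈ commutator ↥(NC x y) := by
    rw [← Abelianization.ker_of, MonoidHom.mem_ker]
    exact hfin
  rw [← Subgroup.map_subtype_commutator]
  exact ⟨c (p - 1), hmem, hc (p - 1)⟩

end Cfsg.Agent.Lib.Helper83.BB
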